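import Mathlib
import Cfsg.Agent.H616.TI.Defs
import Cfsg.Agent.H967.CopConj
import Cfsg.Agent.OddOrderCharacters.IndRes

/-!
# Groups with a normal Sylow subgroup and a complement: restriction to the complement

`P` normal `p`-subgroup of `H`, `K` a complement of order prime to `p`.

* `proj` : the projection `H → K`; `infl φ` : the inflation of `φ ∈ Irr K`;
* `exists_conj_mem` : `p`-regular elements are conjugate into `K`;
* `sum_sq_inner` : `∑_ψ |[ψ|K, D]|² = |K|⁻¹ ∑_k |C_P(k)| |D k|²` for class functions `D` of `K`.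
-/

set_option autoImplicit false
set_option linter.unusedSectionVars false

namespace Cfsg.Agent.H967.TI

open Cfsg Subgroup
open scoped ComplexConjugate Pointwise
open Cfsg.Agent.Characters Cfsg.Agent.Characters.Core

universe u

variable {H : Type u} [Group H] {P K : Subgroup H} [hPn : P.Normal]

/-- The projection onto the complement. -/
noncomputable def proj (hc : P.IsComplement' K) : H →* K :=
  (hc.symm.QuotientMulEquiv : H ⧸ P ≃* K).toMonoidHom.comp (QuotientGroup.mk' P)

theorem proj_coe (hc : P.IsComplement' K) (k : K) : proj hc k = k := by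
  have h : (hc.symm.QuotientMulEquiv : H ⧸ P ≃* K).symm k = QuotientGroup.mk' P (k : H) := rfl
  change (hc.symm.QuotientMulEquiv : H ⧸ P ≃* K) (QuotientGroup.mk' P (k : H)) = k
  rw [← h, MulEquiv.apply_symm_apply]

theorem proj_of_mem (hc : P.IsComplement' K) {u : H} (hu : u ∈ P) : proj hc u = 1 := by
  change (hc.symm.QuotientMulEquiv : H ⧸ P ≃* K) (QuotientGroup.mk' P u) = 1
  rw [(QuotientGroup.eq_one_iff u).2 hu |> (fun h => (show QuotientGroup.mk' P u = 1 from h)), map_one]

theorem proj_surjective (hc : P.IsComplement' K) : Function.Surjective (proj hc) :=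
  fun k => ⟨k, proj_coe hc k⟩

theorem exists_mul (hc : P.IsComplement' K) (g : H) : ∃ u ∈ P, ∃ k : K, g = u * k := by
  obtain ⟨⟨u, k⟩, h⟩ := hc.2 g
  exact ⟨u, u.2, k, h.symm⟩

theorem proj_mul (hc : P.IsComplement' K) {u : H} (hu : u ∈ P) (k : K) : proj hc (u * k) = k := by
  rw [map_mul, proj_of_mem hc hu, proj_coe, one_mul]

theorem mul_inv_proj_mem (hc : P.IsComplement' K) (g : H) : g * ((proj hc g : K) : H)⁻¹ ∈ P := by
  obtain ⟨u, hu, k, rfl⟩ := exists_mul hc g
  rw [proj_mul hc hu, mul_inv_cancel_right]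
  exact hu

theorem eq_one_of_mem (hc : P.IsComplement' K) {g : H} (h1 : g ∈ P) (h2 : g ∈ K) : g = 1 := by
  have h := hc.disjoint
  exact Subgroup.disjoint_def.1 h h1 h2

/-- The inflation of an irreducible character of the complement. -/
noncomputable def infl (hc : P.IsComplement' K) (φ : IrrCharacter K) : IrrCharacter H :=
  ⟨(φ : K → ℂ) ∘ proj hc, isIrr_comp (proj hc) (proj_surjective hc) φ.2⟩

theorem infl_apply (hc : P.IsComplement' K) (φ : IrrCharacter K) (g : H) :
    (infl hc φ : H → ℂ) g = (φ : K → ℂ) (proj hc g) := rfl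

theorem infl_coe (hc : P.IsComplement' K) (φ : IrrCharacter K) (k : K) :
    (infl hc φ : H → ℂ) k = (φ : K → ℂ) k := by
  rw [infl_apply, proj_coe]

variable [Finite H] {p : ℕ} [Fact p.Prime]

/-- `p`-regular elements are conjugate into the complement. -/
theorem exists_conj_mem (hc : P.IsComplement' K) (hP : IsPGroup p P) (hK : ¬ p ∣ Nat.card K) {g : H}
    (hg : ¬ p ∣ orderOf g) : ∃ h : H, h * g * h⁻¹ ∈ K := by
  have hp : p.Prime := Fact.out
  obtain ⟨n, hn⟩ := IsPGroup.iff_card.1 hP
  obtain ⟨u, hu, k, hgk⟩ := exists_mul hc g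
  have hcop : ∀ m : ℕ, ¬ p ∣ m → m.Coprime (Nat.card P) := by
    intro m hm
    rw [hn]
    exact Nat.Coprime.pow_right n ((Nat.Prime.coprime_iff_not_dvd hp).2 hm).symm
  obtain ⟨s, hs⟩ := Cfsg.Agent.H967.CopConj.conj_le P (Subgroup.zpowers (k : H)) inferInstance
    (hcop _ (by
      rw [Nat.card_zpowers, Subgroup.orderOf_coe]
      exact fun h => hK (h.trans (orderOf_dvd_natCard k))))
    (Subgroup.zpowers g) (hcop _ (by rwa [Nat.card_zpowers]))
    (by
      rw [Subgroup.zpowers_le, hgk, sup_comm]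
      exact Subgroup.mul_mem_sup hu (Subgroup.mem_zpowers _))
  refine ⟨s, ?_⟩
  have h1 : MulAut.conj s • g ∈ Subgroup.zpowers (k : H) :=
    hs (Subgroup.smul_mem_pointwise_smul _ _ _ (Subgroup.mem_zpowers g))
  have h2 : Subgroup.zpowers (k : H) ≤ K := by
    rw [Subgroup.zpowers_le]; exact k.2
  exact h2 h1

theorem not_dvd_orderOf (hK : ¬ p ∣ Nat.card K) (k : K) : ¬ p ∣ orderOf (k : H) := by
  rw [Subgroup.orderOf_coe]
  exact fun h => hK (h.trans (orderOf_dvd_natCard k))

/-- The value of an induced function at an element of the complement. -/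
theorem indFun_coe [Fintype H] (hc : P.IsComplement' K) {D : K → ℂ} (hD : IsClassFunction K D)
    (k : K) : indFun K D (k : H) =
      (Nat.card ↥(P ⊓ centralizer ({(k : H)} : Set H)) : ℂ) * D k := by
  classical
  have := Fintype.ofFinite K
  have := Fintype.ofFinite P
  rw [indFun_apply]
  -- the sum over `P × K`
  have h1 : ∑ x : H, extendByZero K D (x⁻¹ * k * x) =
      ∑ y : P × K, extendByZero K D (((y.1 : H) * y.2)⁻¹ * k * ((y.1 : H) * y.2)) := by
    symm
    exact Fintype.sum_bijective (fun y : P × K => (y.1 : H) * y.2) hc _ _ fun _ => rfl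
  have h2 : ∀ y : P × K, extendByZero K D (((y.1 : H) * y.2)⁻¹ * k * ((y.1 : H) * y.2)) =
      if (y.1 : H) ∈ centralizer ({(k : H)} : Set H) then D k else 0 := by
    rintro ⟨u, m⟩
    dsimp only
    split_ifs with hu
    · have h3 : ((u : H) * m)⁻¹ * k * ((u : H) * m) = ((m⁻¹ * k * m : K) : H) := by
        have h4 := Subgroup.mem_centralizer_singleton_iff.1 hu
        push_cast
        calc ((u : H) * m)⁻¹ * k * ((u : H) * m) = (m : H)⁻¹ * ((u : H)⁻¹ * (k * u)) * m := by group
          _ = (m : H)⁻¹ * k * m := by rw [← h4, inv_mul_cancel_left]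
      rw [h3, extendByZero_of_mem K D (m⁻¹ * k * m).2]
      have h5 := hD k m⁻¹
      rw [inv_inv] at h5
      exact h5
    · refine extendByZero_of_notMem K D fun hmem => hu ?_
      -- `u⁻¹ k u ∈ K`
      have h3 : (u : H)⁻¹ * k * u ∈ K := by
        have h4 := K.mul_mem (K.mul_mem m.2 hmem) (K.inv_mem m.2)
        have h5 : (m : H) * (((u : H) * m)⁻¹ * k * ((u : H) * m)) * (m : H)⁻¹ =
            (u : H)⁻¹ * k * u := by group
        rwa [h5] at h4
      have h4 : (u : H)⁻¹ * k * u * (k : H)⁻¹ ∈ K := K.mul_mem h3 (K.inv_mem k.2)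
      have h5 : (u : H)⁻¹ * k * u * (k : H)⁻¹ ∈ P := by
        have h6 : (u : H)⁻¹ * (k * u * (k : H)⁻¹) ∈ P :=
          P.mul_mem (P.inv_mem u.2) (hPn.conj_mem _ u.2 _)
        simpa [mul_assoc] using h6
      have h6 := eq_one_of_mem hc h5 h4
      rw [Subgroup.mem_centralizer_singleton_iff]
      have h7 : (u : H)⁻¹ * k * u = k := by
        rw [mul_inv_eq_one] at h6
        exact h6
      calc (u : H) * k = u * ((u : H)⁻¹ * k * u) := by rw [h7]
        _ = k * u := by group
  have h8 : ∑ y : P × K, (if (y.1 : H) ∈ centralizer ({(k : H)} : Set H) then D k else 0) =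
      (Nat.card K : ℂ) * ∑ u : P, (if (u : H) ∈ centralizer ({(k : H)} : Set H) then D k else 0) := by
    rw [Fintype.sum_prod_type_right]
    have h9 : ∀ y : K, ∑ x : P, (if ((x, y).1 : H) ∈ centralizer ({(k : H)} : Set H) then D k else 0) =
        ∑ u : P, (if (u : H) ∈ centralizer ({(k : H)} : Set H) then D k else 0) := by
      intro y
      refine Finset.sum_congr rfl fun x _ => ?_
      congr
    rw [Finset.sum_congr rfl fun y _ => h9 y, Finset.sum_const, Finset.card_univ, nsmul_eq_mul,
      Nat.card_eq_fintype_card (α := K)]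
  rw [h1, Fintype.sum_congr _ _ h2, h8, ← mul_assoc,
    inv_mul_cancel₀ (card_ne_zero_complex (G := K)), one_mul, ← Finset.sum_filter,
    Finset.sum_const, nsmul_eq_mul]
  congr 2
  rw [← Fintype.card_subtype, ← Nat.card_eq_fintype_card]
  refine Nat.card_congr ⟨fun x => ⟨x.1, x.1.2, x.2⟩, fun x => ⟨⟨x.1, x.2.1⟩, x.2.2⟩, fun _ => rfl,
    fun _ => rfl⟩

/-- Parseval's identity for the restrictions to the complement. -/
theorem sum_sq_inner [Fintype H] [Fintype K] [Fintype (IrrCharacter H)] (hc : P.IsComplement' K)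
    {D : K → ℂ} (hD : IsClassFunction K D) :
    ∑ ψ : IrrCharacter H, ‖classInner (fun k : K => (ψ : H → ℂ) k) D‖ ^ 2 =
      (Nat.card K : ℝ)⁻¹ * ∑ k : K,
        (Nat.card ↥(P ⊓ centralizer ({(k : H)} : Set H)) : ℝ) * ‖D k‖ ^ 2 := by
  have hF := OddOrderCharacters.IndRes.isClassFunction_indFun K D
  have h1 := classInner_eq_sum hF hF
  have h2 : classInner (indFun K D) (indFun K D) = ∑ ψ : IrrCharacter H,
      ((‖classInner (fun k : K => (ψ : H → ℂ) k) D‖ ^ 2 : ℝ) : ℂ) := by
    rw [h1]
    refine Finset.sum_congr rfl fun ψ _ => ?_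
    have h3 : classInner (ψ : H → ℂ) (indFun K D) = classInner (fun k : K => (ψ : H → ℂ) k) D :=
      OddOrderCharacters.IndRes.classInner_indFun_right K D (isIrr_isClassFunction ψ.2)
    rw [← h3, ← classInner_conj_symm (ψ : H → ℂ) (indFun K D), Complex.conj_conj, mul_comm,
      Complex.mul_conj, Complex.normSq_eq_norm_sq]
  have h4 : classInner (indFun K D) (indFun K D) =
      ((Nat.card K : ℝ)⁻¹ * ∑ k : K,
        (Nat.card ↥(P ⊓ centralizer ({(k : H)} : Set H)) : ℝ) * ‖D k‖ ^ 2 : ℝ) := by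
    have h5 : classInner (indFun K D) (indFun K D) =
        classInner (fun k : K => indFun K D (k : H)) D :=
      OddOrderCharacters.IndRes.classInner_indFun_right K D hF
    rw [h5, classInner_def]
    push_cast
    congr 1
    refine Finset.sum_congr rfl fun k _ => ?_
    rw [indFun_coe hc hD, mul_assoc, Complex.mul_conj, Complex.normSq_eq_norm_sq]
    push_cast
    ring
  rw [h2, ← Complex.ofReal_sum] at h4
  exact_mod_cast h4

end Cfsg.Agent.H967.TI
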