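import Mathlib
import Cfsg.Agent.H967.TI.Proj

/-!
# Blocks of a group with a normal Sylow subgroup and the restrictions to a complement

* `coord_eq_zero` : for `ψ ∈ b` the constituents `φ` of `ψ|K` have `infl φ ∈ b`;
* `rel_iff` : the integral relations between the restrictions to the `p`-regular elements.
-/

set_option autoImplicit false
set_option linter.unusedSectionVars false

namespace Cfsg.Agent.H967.TI

open Cfsg Subgroup
open scoped ComplexConjugate Pointwise
open Cfsg.Agent.Characters Cfsg.Agent.Characters.Core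
open Cfsg.Agent.Blocks.Blau Cfsg.Agent.H613.RegGram

universe u

variable {H : Type u} [Group H] {P K : Subgroup H} [hPn : P.Normal] {p : ℕ} [Fact p.Prime]

section

variable [Fintype H] [Fintype K] [Fintype (IrrCharacter K)]

theorem res_isClassFunction (ψ : IrrCharacter H) :
    IsClassFunction K (fun k : K => (ψ : H → ℂ) k) := fun g h =>
  isIrr_isClassFunction ψ.2 (g : H) (h : H)

theorem res_eq_sum (ψ : IrrCharacter H) (k : K) : (ψ : H → ℂ) k =
    ∑ φ : IrrCharacter K, classInner (fun k : K => (ψ : H → ℂ) k) (φ : K → ℂ) * (φ : K → ℂ) k := by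
  have h1 := congrFun (classFunction_eq_sum (res_isClassFunction (K := K) ψ)) k
  rw [Finset.sum_apply] at h1
  exact h1

/-- `ψ` and the inflation of its restriction agree at the `p`-regular elements. -/
theorem eq_sum_infl (hc : P.IsComplement' K) (hP : IsPGroup p P) (hK : ¬ p ∣ Nat.card K)
    (ψ : IrrCharacter H) {g : H} (hg : ¬ p ∣ orderOf g) : (ψ : H → ℂ) g =
    ∑ φ : IrrCharacter K, classInner (fun k : K => (ψ : H → ℂ) k) (φ : K → ℂ) *
      (infl hc φ : H → ℂ) g := by
  obtain ⟨h, hh⟩ := exists_conj_mem hc hP hK hg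
  have e1 := isIrr_isClassFunction ψ.2 g h
  have e2 : ∀ φ : IrrCharacter K, (infl hc φ : H → ℂ) g = (φ : K → ℂ) ⟨h * g * h⁻¹, hh⟩ := by
    intro φ
    rw [← isIrr_isClassFunction (infl hc φ).2 g h]
    exact infl_coe hc φ ⟨h * g * h⁻¹, hh⟩
  rw [← e1]
  simp only [e2]
  exact res_eq_sum ψ ⟨h * g * h⁻¹, hh⟩

theorem rg_sum {ι : Type*} (s : Finset ι) (c : ι → ℂ) (f : ι → H → ℂ) (ζ : H → ℂ) :
    rg p (∑ i ∈ s, c i • f i) ζ = ∑ i ∈ s, c i * rg p (f i) ζ := by
  rw [rg_eq_classInner, regPart_sum_smul, classInner_sum_left]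
  refine Finset.sum_congr rfl fun i _ => ?_
  rw [classInner_smul_left, rg_eq_classInner]

theorem rg_congr {f f' : H → ℂ} (h : ∀ g, ¬ p ∣ orderOf g → f g = f' g) (ζ : H → ℂ) :
    rg p f ζ = rg p f' ζ := by
  have h1 : regPart p f = regPart p f' := by
    funext g
    by_cases hg : p ∣ orderOf g
    · rw [regPart_of_dvd hg, regPart_of_dvd hg]
    · rw [regPart_of_not_dvd hg, regPart_of_not_dvd hg, h g hg]
  rw [rg_eq_classInner, rg_eq_classInner, h1]

/-- For `ψ ∈ b` the constituents `φ` of `ψ|K` have `infl φ ∈ b`. -/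
theorem coord_eq_zero {M : Ideal AlgInt} (hM : IsPModular p M) {b : Set (IrrCharacter H)}
    (hb : IsPBlock M b) (hc : P.IsComplement' K) (hP : IsPGroup p P) (hK : ¬ p ∣ Nat.card K)
    {ψ : IrrCharacter H} (hψ : ψ ∈ b) {φ : IrrCharacter K} (hφ : infl hc φ ∉ b) :
    classInner (fun k : K => (ψ : H → ℂ) k) (φ : K → ℂ) = 0 := by
  classical
  have := finite_irr (G := H)
  have := Fintype.ofFinite (IrrCharacter H)
  set m : IrrCharacter K → ℂ := fun φ => classInner (fun k : K => (ψ : H → ℂ) k) (φ : K → ℂ) with hm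
  set S : Finset (IrrCharacter K) := Finset.univ.filter fun φ => infl hc φ ∉ b with hS
  set F : H → ℂ := ∑ φ ∈ S, m φ • (infl hc φ : H → ℂ) with hF
  have hFc : IsClassFunction H F := by
    intro g h
    rw [hF, Finset.sum_apply, Finset.sum_apply]
    refine Finset.sum_congr rfl fun φ _ => ?_
    rw [Pi.smul_apply, Pi.smul_apply, isIrr_isClassFunction (infl hc φ).2 g h]
  have h0 : ∀ ζ : IrrCharacter H, rg p F (ζ : H → ℂ) = 0 := by
    intro ζ
    by_cases hζ : ζ ∈ b
    · rw [hF, rg_sum]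
      refine Finset.sum_eq_zero fun φ' hφ' => ?_
      rw [rg_eq_zero' hM hb (Finset.mem_filter.1 hφ').2 hζ, mul_zero]
    · have h1 : rg p F (ζ : H → ℂ) =
          rg p (∑ φ : IrrCharacter K, m φ • (infl hc φ : H → ℂ)) (ζ : H → ℂ) := by
        rw [hF, rg_sum, rg_sum]
        refine Finset.sum_subset (Finset.subset_univ _) fun φ' _ hφ' => ?_
        have h2 : infl hc φ' ∈ b := by
          by_contra h3
          exact hφ' (Finset.mem_filter.2 ⟨Finset.mem_univ _, h3⟩)
        rw [rg_eq_zero hM hb h2 hζ, mul_zero]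
      rw [h1, ← rg_eq_zero hM hb hψ hζ]
      refine rg_congr (fun g hg => ?_) _
      rw [eq_sum_infl hc hP hK ψ hg, Finset.sum_apply]
      rfl
  have h1 : regPart p F = 0 := by
    rw [regPart_eq_sum p hFc]
    exact Finset.sum_eq_zero fun ζ _ => by rw [h0 ζ, zero_smul]
  have h2 : ∑ φ : IrrCharacter K, (if φ ∈ S then m φ else 0) • (φ : K → ℂ) = 0 := by
    funext k
    have h3 := congrFun h1 (k : H)
    rw [regPart_of_not_dvd (not_dvd_orderOf hK k), hF, Finset.sum_apply] at h3
    have h4 : ∑ φ ∈ S, m φ * (φ : K → ℂ) k = 0 := by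
      rw [show (0 : ℂ) = (0 : H → ℂ) (k : H) from rfl, ← h3]
      refine Finset.sum_congr rfl fun φ' _ => ?_
      rw [Pi.smul_apply, smul_eq_mul, infl_coe]
    rw [Finset.sum_apply, Pi.zero_apply]
    refine Eq.trans ?_ h4
    rw [← Finset.sum_subset (Finset.subset_univ S)]
    · refine Finset.sum_congr rfl fun φ' hφ' => ?_
      rw [Pi.smul_apply, if_pos hφ', smul_eq_mul]
    · intro φ' _ hφ'
      rw [Pi.smul_apply, if_neg hφ', zero_smul]
  have h3 := Fintype.linearIndependent_iff.1 (irr_linearIndependent (G := K)) _ h2 φ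
  have h4 : φ ∈ S := by
    rw [hS, Finset.mem_filter]
    exact ⟨Finset.mem_univ _, hφ⟩
  rwa [if_pos h4] at h3

end

end Cfsg.Agent.H967.TI
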