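import Mathlib
import Cfsg.Agent.H967.TI.Supp
import Cfsg.Agent.H967.TI.PropC
import Cfsg.Agent.H967.TI.Est

/-!
# S4821, FORM: the form bound for blocks of groups with a normal Sylow subgroup

`goalForm : Cfsg.Agent.H616.TI.GoalForm`.
-/

set_option autoImplicit false
set_option linter.unusedSectionVars false

namespace Cfsg.Agent.H967.TI

open Cfsg Subgroup
open scoped ComplexConjugate Pointwise
open Cfsg.Agent.Characters Cfsg.Agent.Characters.Core
open Cfsg.Agent.Blocks.Blau Cfsg.Agent.H613.RegGram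
open Cfsg.Agent.H967.TI.Path
open Cfsg.Agent.H616.Form

universe u

variable {H : Type u} [Group H] {P K : Subgroup H} [hPn : P.Normal] {p : ℕ} [Fact p.Prime]

section index

variable [Finite H]

/-- Elements of `K ∩ P C(P)` centralize `P`. -/
theorem mem_centralizer_of_mem_sup (hP : IsPGroup p P) (hK : ¬ p ∣ Nat.card K) {k : H} (hk : k ∈ K)
    (h : k ∈ P ⊔ centralizer (P : Set H)) : k ∈ centralizer (P : Set H) := by
  have hp : p.Prime := Fact.out
  rw [← SetLike.mem_coe, Subgroup.normal_mul] at h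
  obtain ⟨u, hu, c, hc, rfl⟩ := h
  have huc : Commute u c := (Subgroup.mem_centralizer_iff.1 hc u hu)
  have hn : ¬ p ∣ orderOf (u * c) := by
    intro hd
    have h1 := orderOf_dvd_natCard (⟨u * c, hk⟩ : K)
    rw [Subgroup.orderOf_mk] at h1
    exact hK (hd.trans h1)
  obtain ⟨m, hm⟩ := hP ⟨u, hu⟩
  have hm' : u ^ p ^ m = 1 := congrArg Subtype.val hm
  have h1 : u ^ orderOf (u * c) ∈ centralizer (P : Set H) := by
    have h2 : u ^ orderOf (u * c) * c ^ orderOf (u * c) = 1 := by
      rw [← huc.mul_pow, pow_orderOf_eq_one]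
    rw [eq_inv_of_mul_eq_one_left h2]
    exact inv_mem (pow_mem hc _)
  have h3 : u ∈ centralizer (P : Set H) := by
    have hcop : (orderOf (u * c)).Coprime (p ^ m) :=
      Nat.Coprime.pow_right m ((Nat.Prime.coprime_iff_not_dvd hp).2 hn).symm
    have h4 : u = (u ^ orderOf (u * c)) ^ (Nat.gcdA (orderOf (u * c)) (p ^ m)) *
        (u ^ p ^ m) ^ (Nat.gcdB (orderOf (u * c)) (p ^ m)) := by
      have h5 := Nat.gcd_eq_gcd_ab (orderOf (u * c)) (p ^ m)
      rw [hcop] at h5
      rw [← zpow_natCast u (orderOf (u * c)), ← zpow_natCast u (p ^ m), ← zpow_mul, ← zpow_mul,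
        ← zpow_add, ← h5]
      simp
    rw [h4, hm', one_zpow, mul_one]
    exact zpow_mem h1 _
  exact mul_mem h3 hc

theorem card_compl (hc : P.IsComplement' K) (hP : IsPGroup p P) (hK : ¬ p ∣ Nat.card K) :
    Nat.card K = (P ⊔ centralizer (P : Set H)).index *
      Nat.card ↥((centralizer (P : Set H)).subgroupOf K) := by
  have hn : (P ⊔ centralizer (P : Set H)).Normal := inferInstance
  have h1 : (centralizer (P : Set H)).subgroupOf K = (P ⊔ centralizer (P : Set H)).subgroupOf K := by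
    ext k
    rw [Subgroup.mem_subgroupOf, Subgroup.mem_subgroupOf]
    exact ⟨fun h => Subgroup.mem_sup_right h, fun h => mem_centralizer_of_mem_sup hP hK k.2 h⟩
  have h2 : ((P ⊔ centralizer (P : Set H)).subgroupOf K).index = (P ⊔ centralizer (P : Set H)).index := by
    have h3 := Subgroup.relIndex_sup_right K (P ⊔ centralizer (P : Set H))
    have h4 : K ⊔ (P ⊔ centralizer (P : Set H)) = ⊤ := by
      rw [eq_top_iff, ← hc.sup_eq_top]
      exact sup_le (le_sup_left.trans le_sup_right) le_sup_left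
    rw [h4, Subgroup.relIndex_top_right] at h3
    rw [h3]
    rfl
  rw [← h2, ← h1, mul_comm]
  exact (Subgroup.card_mul_index _).symm

theorem inf_normal (hc : P.IsComplement' K) : (K ⊓ centralizer (P : Set H)).Normal := by
  refine ⟨fun n hn g => ?_⟩
  obtain ⟨u, hu, k, rfl⟩ := exists_mul hc g
  have h1 : (k : H) * n * (k : H)⁻¹ ∈ K ⊓ centralizer (P : Set H) :=
    ⟨K.mul_mem (K.mul_mem k.2 hn.1) (K.inv_mem k.2), (inferInstance : (centralizer (P : Set H)).Normal).conj_mem n hn.2 k⟩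
  have h2 : u * ((k : H) * n * (k : H)⁻¹) = ((k : H) * n * (k : H)⁻¹) * u :=
    Subgroup.mem_centralizer_iff.1 h1.2 u hu
  have h3 : u * (k : H) * n * (u * (k : H))⁻¹ = (k : H) * n * (k : H)⁻¹ := by
    calc u * (k : H) * n * (u * (k : H))⁻¹ = u * ((k : H) * n * (k : H)⁻¹) * u⁻¹ := by group
      _ = (k : H) * n * (k : H)⁻¹ := by rw [h2, mul_inv_cancel_right]
  rw [h3]
  exact h1

end index

/-- **FORM.** -/
theorem goalForm : Cfsg.Agent.H616.TI.GoalForm.{u} := by
  intro H _ _ p _ M hM Q hQn hyp b hb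
  classical
  have hMp : M.IsPrime := hM.2.1.isPrime
  have := Fintype.ofFinite H
  set P : Subgroup H := (Q : Subgroup H) with hPdef
  have hPn : P.Normal := hQn
  have hP : IsPGroup p P := Q.2
  obtain ⟨K, hc⟩ := Subgroup.exists_right_complement'_of_coprime (N := P) (Q.card_coprime_index)
  have hK : ¬ p ∣ Nat.card K := by
    have h1 : P.index = Nat.card K := hc.symm.index_eq_card
    rw [← h1]
    exact Q.not_dvd_index
  have := Fintype.ofFinite K
  have := finite_irr (G := H)
  have := Fintype.ofFinite (IrrCharacter H)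
  have := finite_irr (G := K)
  have := Fintype.ofFinite (IrrCharacter K)
  have := Fintype.ofFinite b
  -- the characters of `K` in the block, by increasing degree
  let κ := {φ : IrrCharacter K // infl hc φ ∈ b}
  let l := Fintype.card κ
  let e : Fin l ≃ κ := (Fintype.equivFin κ).symm
  let dg : Fin l → ℕ := fun i => charDegree (((e i).1 : IrrCharacter K) : K → ℂ)
  let σ := Tuple.sort dg
  let φ : Fin l → IrrCharacter K := fun i => (e (σ i)).1
  have hφi : Function.Injective φ := by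
    intro i j hij
    exact σ.injective (e.injective (Subtype.ext hij))
  have hφb : ∀ i, infl hc (φ i) ∈ b := fun i => (e (σ i)).2
  have hφs : ∀ φ' : IrrCharacter K, infl hc φ' ∈ b → ∃ i, φ i = φ' := by
    intro φ' h'
    refine ⟨σ.symm (e.symm ⟨φ', h'⟩), ?_⟩
    change (e (σ (σ.symm (e.symm ⟨φ', h'⟩)))).1 = φ'
    rw [Equiv.apply_symm_apply, Equiv.apply_symm_apply]
  let a : Fin l → ℕ := dg ∘ σ
  have ha : ∀ i, (φ i : K → ℂ) 1 = a i := fun i => apply_one_eq_charDegree (φ i)
  have hmono : Monotone a := Tuple.monotone_sort dg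
  -- the coordinates
  have hx0 : ∀ (ψ : IrrCharacter H) (i : Fin l), ∃ n : ℕ,
      classInner (fun k : K => (ψ : H → ℂ) k) (φ i : K → ℂ) = n := by
    intro ψ i
    have hch : IsCharacter K (fun k : K => (ψ : H → ℂ) k) :=
      isCharacter_comp K.subtype (isIrr_isCharacter ψ.2)
    exact classInner_isNat hch (isIrr_isCharacter (φ i).2)
  choose x hx using hx0
  have hrel : ∀ c : b → ℤ, Rel p b c ↔ ∀ j, ∑ ψ : b, c ψ * (x ψ j : ℤ) = 0 := by
    intro c
    constructor
    · intro h j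
      have h1 : ∑ ψ : b, (c ψ : ℂ) * classInner (fun k : K => ((ψ : IrrCharacter H) : H → ℂ) k) (φ j : K → ℂ) = 0 := by
        have h2 : classInner (∑ ψ : b, (c ψ : ℂ) • (fun k : K => ((ψ : IrrCharacter H) : H → ℂ) k))
            (φ j : K → ℂ) = 0 := by
          have h3 : (∑ ψ : b, (c ψ : ℂ) • (fun k : K => ((ψ : IrrCharacter H) : H → ℂ) k)) = 0 := by
            funext k
            rw [Finset.sum_apply]
            exact h k (not_dvd_orderOf hK k)
          rw [h3, classInner_zero_left]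
        rw [classInner_sum_left] at h2
        rw [← h2]
        exact Finset.sum_congr rfl fun ψ _ => (classInner_smul_left _ _ _).symm
      have h2 : ((∑ ψ : b, c ψ * (x ψ j : ℤ) : ℤ) : ℂ) = 0 := by
        push_cast
        rw [← h1]
        exact Finset.sum_congr rfl fun ψ _ => by rw [hx]
      exact_mod_cast h2
    · intro h g hg
      have h1 : ∀ ψ : b, (c ψ : ℂ) * ((ψ : IrrCharacter H) : H → ℂ) g = ∑ φ' : IrrCharacter K,
          (c ψ : ℂ) * (classInner (fun k : K => ((ψ : IrrCharacter H) : H → ℂ) k) (φ' : K → ℂ) *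
            (infl hc φ' : H → ℂ) g) := by
        intro ψ
        rw [eq_sum_infl hc hP hK (ψ : IrrCharacter H) hg, Finset.mul_sum]
      rw [Finset.sum_congr rfl fun ψ _ => h1 ψ, Finset.sum_comm]
      refine Finset.sum_eq_zero fun φ' _ => ?_
      by_cases hφ' : infl hc φ' ∈ b
      · obtain ⟨i, rfl⟩ := hφs φ' hφ'
        have h2 : ((∑ ψ : b, c ψ * (x ψ i : ℤ) : ℤ) : ℂ) = 0 := by rw [h i, Int.cast_zero]
        push_cast at h2
        rw [← zero_mul ((infl hc (φ i) : H → ℂ) g), ← h2, Finset.sum_mul]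
        refine Finset.sum_congr rfl fun ψ _ => ?_
        rw [hx, mul_assoc]
      · refine Finset.sum_eq_zero fun ψ _ => ?_
        rw [coord_eq_zero hM hb hc hP hK ψ.2 hφ', zero_mul, mul_zero]
  -- the subgroup `N`
  set N : Subgroup K := (centralizer (P : Set H)).subgroupOf K with hN
  have hprop : ∀ i j, ∀ n ∈ N, (φ i : K → ℂ) n / (φ i : K → ℂ) 1 = (φ j : K → ℂ) n / (φ j : K → ℂ) 1 := by
    intro i j n hn
    have := inf_normal hc
    have h1 := apply_div_of_sameBlock hM (K ⊓ centralizer (P : Set H))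
      (fun h => hK (h.trans (Subgroup.card_dvd_of_le inf_le_left)))
      (Blocks.Fong.sameBlock_of_mem hMp hb (hφb i) (hφb j)) (n := (n : H)) ⟨n.2, hn⟩
    have h2 : ∀ i, (infl hc (φ i) : H → ℂ) 1 = (φ i : K → ℂ) 1 := fun i => by
      rw [infl_apply, map_one]
    rw [infl_coe, infl_coe, h2, h2] at h1
    exact h1
  -- the bounds for the fixed points
  let f : K → ℕ := fun k => Nat.card ↥(P ⊓ centralizer ({(k : H)} : Set H))
  let c : ℕ := (Finset.univ.filter fun k : K => k ∉ N).sup f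
  have hf1 : ∀ k ∈ N, f k ≤ Nat.card P := fun k _ =>
    Nat.le_of_dvd Nat.card_pos (Subgroup.card_dvd_of_le inf_le_left)
  have hf2 : ∀ k ∉ N, f k ≤ c := fun k hk =>
    Finset.le_sup (f := f) (Finset.mem_filter.2 ⟨Finset.mem_univ _, hk⟩)
  have hcx : ((P ⊔ centralizer (P : Set H)).index + 1) * c ≤ Nat.card P := by
    rcases (Finset.univ.filter fun k : K => k ∉ N).eq_empty_or_nonempty with h0 | h0
    · have : c = 0 := by
        change (Finset.univ.filter fun k : K => k ∉ N).sup f = 0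
        rw [h0, Finset.sup_empty]
        rfl
      rw [this, mul_zero]
      exact Nat.zero_le _
    · obtain ⟨k, hk, hk'⟩ := Finset.exists_mem_eq_sup _ h0 f
      have hkN : k ∉ N := (Finset.mem_filter.1 hk).2
      change ((P ⊔ centralizer (P : Set H)).index + 1) * (Finset.univ.filter fun k : K => k ∉ N).sup f ≤ _
      rw [hk']
      exact hyp k (not_dvd_orderOf hK k) fun h => hkN h
  have hxx : (Nat.card K : ℝ) ≤ ((P ⊔ centralizer (P : Set H)).index : ℝ) * Nat.card N := by
    have := card_compl hc hP hK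
    exact_mod_cast this.le
  have hest := estimate N φ hφi a ha hmono hprop (fun k => (f k : ℝ)) (Nat.card P) c
    ((P ⊔ centralizer (P : Set H)).index) (fun k hk => by exact_mod_cast hf1 k hk)
    (fun k hk => by exact_mod_cast hf2 k hk) hxx (by exact_mod_cast hcx) (Nat.cast_nonneg _) (Nat.cast_nonneg _)
  -- the form
  have h2 : (Real.sqrt 2)⁻¹ ^ 2 = 1 / 2 := by
    rw [inv_pow, Real.sq_sqrt (by norm_num)]
    norm_num
  have hLv : ∀ (v : Fin l → ℤ) (j : Fin (l + 1)), (∑ i : Fin l, ((Real.sqrt 2)⁻¹ * (coef j i : ℝ)) * (v i : ℝ)) ^ 2 =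
      1 / 2 * (((∑ i : Fin l, coef j i * v i) ^ 2 : ℤ) : ℝ) := by
    intro v j
    have h3 : ∑ i : Fin l, ((Real.sqrt 2)⁻¹ * (coef j i : ℝ)) * (v i : ℝ) =
        (Real.sqrt 2)⁻¹ * ((∑ i : Fin l, coef j i * v i : ℤ) : ℝ) := by
      push_cast
      rw [Finset.mul_sum]
      exact Finset.sum_congr rfl fun i _ => by ring
    rw [h3, mul_pow, h2]
    push_cast
    ring
  refine formBd_of_rows (κ := Fin l) (κ' := Fin (l + 1)) (fun ψ j => (x ψ j : ℤ)) hrel
    (fun j i => (Real.sqrt 2)⁻¹ * (coef j i : ℝ)) ?_ ?_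
  · intro v hv
    rw [Finset.sum_congr rfl fun j _ => hLv v j, ← Finset.mul_sum, ← Int.cast_sum]
    have h3 : ((2 : ℤ) : ℝ) ≤ ((∑ j : Fin (l + 1), (∑ i : Fin l, coef j i * v i) ^ 2 : ℤ) : ℝ) := by
      exact_mod_cast two_le v hv
    push_cast at h3 ⊢
    linarith
  · rw [Finset.sum_comm]
    have hrow : ∀ j : Fin (l + 1), ∑ ψ : b, (∑ i : Fin l, ((Real.sqrt 2)⁻¹ * (coef j i : ℝ)) * ((x ψ i : ℤ) : ℝ)) ^ 2 ≤
        1 / 2 * ((Nat.card K : ℝ)⁻¹ * ∑ k : K, (f k : ℝ) * ‖∑ i : Fin l, ((coef j i : ℝ) : ℂ) * (φ i : K → ℂ) k‖ ^ 2) := by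
      intro j
      set D : K → ℂ := ∑ i : Fin l, ((coef j i : ℝ) : ℂ) • (φ i : K → ℂ) with hD
      have hDc : IsClassFunction K D := by
        intro g h
        rw [hD, Finset.sum_apply, Finset.sum_apply]
        refine Finset.sum_congr rfl fun i _ => ?_
        rw [Pi.smul_apply, Pi.smul_apply, isIrr_isClassFunction (φ i).2 g h]
      have h3 := sum_sq_inner hc hDc
      have h4 : ∀ ψ : IrrCharacter H, ‖classInner (fun k : K => (ψ : H → ℂ) k) D‖ ^ 2 =
          (((∑ i : Fin l, coef j i * (x ψ i : ℤ)) ^ 2 : ℤ) : ℝ) := by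
        intro ψ
        have h5 : classInner (fun k : K => (ψ : H → ℂ) k) D = ((∑ i : Fin l, coef j i * (x ψ i : ℤ) : ℤ) : ℂ) := by
          rw [hD, classInner_sum_right]
          push_cast
          refine Finset.sum_congr rfl fun i _ => ?_
          rw [classInner_smul_right, hx, map_intCast]
        rw [h5, ← Complex.ofReal_intCast, Complex.norm_real, Real.norm_eq_abs, sq_abs]
        push_cast
        ring
      rw [Finset.sum_congr rfl fun (ψ : b) _ => hLv (fun i => (x ψ i : ℤ)) j, ← Finset.mul_sum]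
      refine mul_le_mul_of_nonneg_left ?_ (by norm_num)
      have h6 : ∀ k : K, D k = ∑ i : Fin l, ((coef j i : ℝ) : ℂ) * (φ i : K → ℂ) k := by
        intro k
        rw [hD, Finset.sum_apply]
        rfl
      simp only [← h6]
      have h7 : (Nat.card K : ℝ)⁻¹ * ∑ k : K, (f k : ℝ) * ‖D k‖ ^ 2 =
          ∑ ψ : IrrCharacter H, (((∑ i : Fin l, coef j i * (x ψ i : ℤ)) ^ 2 : ℤ) : ℝ) := by
        rw [← Finset.sum_congr rfl fun ψ _ => h4 ψ, h3]
      rw [h7]
      have h8 : ∑ ψ : b, (((∑ i : Fin l, coef j i * (x ψ i : ℤ)) ^ 2 : ℤ) : ℝ) =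
          ∑ ψ ∈ Finset.univ.filter (fun ψ : IrrCharacter H => ψ ∈ b),
            (((∑ i : Fin l, coef j i * (x ψ i : ℤ)) ^ 2 : ℤ) : ℝ) :=
        (Finset.sum_subtype (p := fun ψ : IrrCharacter H => ψ ∈ b)
          (Finset.univ.filter (fun ψ : IrrCharacter H => ψ ∈ b)) (by simp)
          (fun ψ : IrrCharacter H => (((∑ i : Fin l, coef j i * (x ψ i : ℤ)) ^ 2 : ℤ) : ℝ))).symm
      rw [h8]
      refine Finset.sum_le_sum_of_subset_of_nonneg (Finset.filter_subset _ _) fun ψ _ _ => ?_
      exact Int.cast_nonneg (sq_nonneg _)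
    refine (Finset.sum_le_sum fun j _ => hrow j).trans ?_
    rw [← Finset.mul_sum]
    linarith

end Cfsg.Agent.H967.TI
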